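import Mathlib
import Cfsg.Agent.H656.DihedralP
set_option linter.all false

/-!
# Simple groups with a Sylow subgroup of order `p` whose normalizer has order `2 p`
-/

set_option autoImplicit false

open Cfsg

namespace Cfsg.Agent.H656.DihedralSimple

variable {G : Type*} [Group G] [Finite G] {p : ℕ} [Fact p.Prime]

/-- Burnside: a Sylow subgroup of a simple group central in its normalizer is normal. -/
theorem normal_of_normalizer_le [IsSimpleGroup G] (P : Sylow p G)
    (hN : Subgroup.normalizer ((P : Subgroup G) : Set G) ≤ Subgroup.centralizer (P : Set G)) :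
    (P : Subgroup G).Normal := by
  have h1 := MonoidHom.ker_transferSylow_isComplement' P hN
  rcases (inferInstance : (MonoidHom.transferSylow P hN).ker.Normal).eq_bot_or_eq_top with h | h
  · rw [h, Subgroup.isComplement'_bot_left] at h1
    rw [h1]
    infer_instance
  · rw [h, Subgroup.isComplement'_top_left] at h1
    rw [h1]
    infer_instance

/-- A nonnormal Sylow subgroup of prime order of a simple group with normalizer of order `2 p` is
self-centralizing. -/
theorem centralizer_eq [IsSimpleGroup G] (P : Sylow p G) (hP : Nat.card P = p)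
    (hN : Nat.card (Subgroup.normalizer ((P : Subgroup G) : Set G)) = 2 * p)
    (hnn : ¬ (P : Subgroup G).Normal) :
    Subgroup.centralizer ((P : Subgroup G) : Set G) = P := by
  have hP' : Nat.card (P : Subgroup G) = p := hP
  have hcyc : IsCyclic (P : Subgroup G) := isCyclic_of_prime_card hP'
  have hle : (P : Subgroup G) ≤ Subgroup.centralizer ((P : Subgroup G) : Set G) := by
    intro x hx
    rw [Subgroup.mem_centralizer_iff]
    intro y hy
    let _ := IsCyclic.commGroup (α := (P : Subgroup G))
    exact congrArg Subtype.val (mul_comm (⟨y, hy⟩ : (P : Subgroup G)) ⟨x, hx⟩)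
  have hCN : Subgroup.centralizer ((P : Subgroup G) : Set G) ≤
      Subgroup.normalizer ((P : Subgroup G) : Set G) := Subgroup.centralizer_le_normalizer _
  have h1 : Nat.card (Subgroup.centralizer ((P : Subgroup G) : Set G)) ∣ 2 * p := by
    rw [← hN]
    exact Subgroup.card_dvd_of_le hCN
  have h2 : Nat.card (P : Subgroup G) ∣
      Nat.card (Subgroup.centralizer ((P : Subgroup G) : Set G)) := Subgroup.card_dvd_of_le hle
  rw [hP'] at h2
  obtain ⟨k, hk⟩ := h2
  have hp0 := (Fact.out : p.Prime).pos
  have hk2 : k ∣ 2 := by
    rw [hk, mul_comm] at h1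
    exact Nat.dvd_of_mul_dvd_mul_right hp0 h1
  rcases (Nat.dvd_prime Nat.prime_two).mp hk2 with h | h
  · symm
    apply Subgroup.eq_of_le_of_card_ge hle
    rw [hk, h, mul_one, hP']
  · exfalso
    apply hnn
    apply normal_of_normalizer_le P
    have h3 : Subgroup.centralizer ((P : Subgroup G) : Set G) =
        Subgroup.normalizer ((P : Subgroup G) : Set G) := by
      apply Subgroup.eq_of_le_of_card_ge hCN
      rw [hk, h, hN, mul_comm]
    exact h3.ge

end Cfsg.Agent.H656.DihedralSimple
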